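import Cfsg.Agent.H862.Spr.Rows
import Cfsg.Agent.H779.Dg.E7t

/-!
# S3938: the row of `E₇(q)` from the overgroups of the Coxeter torus (helper339)

* `exists_cox` : an element of order `(q + 1) (q⁶ - q³ + 1) / (2, q - 1)` of `E₇(q)`;
* `OverE7` : the overgroup theorem of helper318;
* `row_e7_of` : the row.
-/

set_option autoImplicit false

namespace Cfsg.Agent.H339.Spr

open Cfsg Cfsg.Lie Cfsg.Lie.ChevalleyDatum Cfsg.Agent.H290.ElMain Cfsg.Agent.H290.ElE7 Cfsg.Agent.H190.Exc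
open Cfsg.Agent.H436 (Prim exists_prim IsNamed)
open Cfsg.Agent.ChevalleyStructure Cfsg.Agent.ChevalleyStructure.Elts Cfsg.Agent.ChevalleyStructure.CoxeterGeom
  Cfsg.Agent.ChevalleyStructure.CoxeterGeomTypes Cfsg.Agent.ChevalleyStructure.NPerm
open Cfsg.Agent.Nodes.RGDChev
open Cfsg.Agent.H129 Cfsg.Agent.H129.CycT Cfsg.Agent.H129.TorusChar Cfsg.Agent.H129.TorusTw Cfsg.Agent.H129.WData
  Cfsg.Agent.H129.TorAct Cfsg.Agent.H129.RealT
open Cfsg.Agent.H779.Dg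

variable {F : Type} [Field F] [Fintype F] {q : ℕ}

/-- the Coxeter torus is cyclic of the right order -/
theorem exists_torus (hq : Fintype.card F = q) {N : ℕ} (hN : (N : ℤ) = 1 - (q : ℤ) ^ 3 + (q : ℤ) ^ 6) :
    ∃ T : Subgroup ↥(chevE7.group F), IsCyclic ↥T ∧ Nat.gcd 2 (q - 1) * Nat.card ↥T = (q + 1) * N := by
  have := finite_W7
  have hq2 : 2 ≤ q := by rw [← hq]; exact Fintype.one_lt_card
  have hfN : fN DataE7h.c (q : ℤ) = ((q + 1) * N : ℕ) := by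
    rw [DataE7h.fN_eq, Nat.cast_mul, hN]; push_cast; ring
  have hqN : q.Coprime ((q + 1) * N) :=
    UntwData.coprime_of_eq (a := 1 - (q : ℤ) ^ 2 - (q : ℤ) ^ 3 + (q : ℤ) ^ 5 + (q : ℤ) ^ 6)
      (by rw [Nat.cast_mul, hN]; push_cast; ring)
  rcases Nat.even_or_odd q with he | ho
  · have hg : Nat.gcd 2 (q - 1) = 1 := by
      rw [← Nat.coprime_iff_gcd_eq_one, Nat.coprime_comm, Nat.coprime_two_right]
      obtain ⟨k, hk⟩ := he
      exact ⟨k - 1, by omega⟩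
    obtain ⟨T, h1, h2, h3, -, -⟩ := UntwT.untw_T typeE7 CoxeterMatrix.E₇.toCoxeterSystem (by norm_num) hq
      TorusChar.invC_E7 (by norm_num) DataE7h.hA DataE7h.chainOK DataE7h.cycOK DataE7h.rootOK hfN hqN (d := 1)
      (Or.inr ⟨rfl, sq_surj hq he⟩)
    rw [one_mul] at h3
    exact ⟨T, h1, by rw [hg, one_mul]; exact Nat.dvd_antisymm h2 h3⟩
  · have hg : Nat.gcd 2 (q - 1) = 2 := by
      refine Nat.gcd_eq_left ?_
      obtain ⟨k, hk⟩ := ho
      exact ⟨k, by omega⟩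
    obtain ⟨T, h3, h4, -, -⟩ := HalfT.half_E7 hq ho typeE7 DataE7h.hA DataE7h.chainOK DataE7h.cycOK DataE7h.rootOK
      hfN hqN
    exact ⟨T, h3, by rw [hg]; exact h4⟩

theorem N_eq (hq2 : 2 ≤ q) : ((q ^ 6 - q ^ 3 + 1 : ℕ) : ℤ) = 1 - (q : ℤ) ^ 3 + (q : ℤ) ^ 6 := by
  have h1 : q ^ 3 ≤ q ^ 6 := Nat.pow_le_pow_right (by omega) (by norm_num)
  rw [Nat.cast_add, Nat.cast_sub h1]
  push_cast
  ring

/-- **The Coxeter element of `E₇(q)`.** -/
theorem exists_cox (hq : Fintype.card F = q) :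
    ∃ x : ↥(chevE7.group F), orderOf x = (q + 1) * (q ^ 6 - q ^ 3 + 1) / Nat.gcd 2 (q - 1) := by
  have hq2 : 2 ≤ q := by rw [← hq]; exact Fintype.one_lt_card
  obtain ⟨T, h1, h2⟩ := exists_torus hq (N_eq hq2)
  obtain ⟨⟨x, hx⟩, hg⟩ := h1.exists_generator
  refine ⟨x, ?_⟩
  have h3 : orderOf (⟨x, hx⟩ : ↥T) = Nat.card ↥T := orderOf_eq_card_of_forall_mem_zpowers hg
  rw [Subgroup.orderOf_mk] at h3
  have h4 : 0 < Nat.gcd 2 (q - 1) := Nat.gcd_pos_of_pos_left _ (by norm_num)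
  rw [h3, ← h2, Nat.mul_div_cancel_left _ h4]

/-- the overgroup theorem of the Coxeter torus -/
def OverE7 : Prop :=
  ∀ {F : Type} [Field F] [Fintype F] {x : ↥(chevE7.group F)},
    orderOf x = (Fintype.card F + 1) * (Fintype.card F ^ 6 - Fintype.card F ^ 3 + 1) /
      Nat.gcd 2 (Fintype.card F - 1) →
    ∀ H : Subgroup ↥(chevE7.group F), x ∈ H → H ≠ ⊤ →
      H ≤ Subgroup.normalizer (Subgroup.zpowers (x ^ (Fintype.card F ^ 6 - Fintype.card F ^ 3 + 1)) :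
        Set ↥(chevE7.group F))

theorem z_ne_one (hq2 : 2 ≤ q) {G : Type*} [Group G] {x : G}
    (hx : orderOf x = (q + 1) * (q ^ 6 - q ^ 3 + 1) / Nat.gcd 2 (q - 1)) : x ^ (q ^ 6 - q ^ 3 + 1) ≠ 1 := by
  intro h
  have h1 := orderOf_dvd_of_pow_eq_one h
  rw [hx] at h1
  have hg : Nat.gcd 2 (q - 1) ∣ q + 1 := by
    have h3 : Nat.gcd 2 (q - 1) ∣ 2 := Nat.gcd_dvd_left _ _
    have h4 := (Nat.dvd_add_right (Nat.gcd_dvd_right 2 (q - 1))).2 h3
    rwa [show q - 1 + 2 = q + 1 by omega] at h4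
  have hg0 : 0 < Nat.gcd 2 (q - 1) := Nat.gcd_pos_of_pos_left _ (by norm_num)
  have hg2 : Nat.gcd 2 (q - 1) ≤ 2 := Nat.gcd_le_left _ (by norm_num)
  have hN : 0 < q ^ 6 - q ^ 3 + 1 := by omega
  obtain ⟨m, hm⟩ := hg
  have h5 : (q + 1) * (q ^ 6 - q ^ 3 + 1) / Nat.gcd 2 (q - 1) = m * (q ^ 6 - q ^ 3 + 1) := by
    rw [hm, mul_assoc, Nat.mul_div_cancel_left _ hg0]
  rw [h5] at h1
  have h6 := Nat.le_of_dvd hN h1
  have h7 : m ≤ 1 := by
    by_contra hcon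
    have : 2 * (q ^ 6 - q ^ 3 + 1) ≤ m * (q ^ 6 - q ^ 3 + 1) := Nat.mul_le_mul_right _ (by omega)
    omega
  have h8 : Nat.gcd 2 (q - 1) * m ≤ 2 * 1 := Nat.mul_le_mul hg2 h7
  omega

/-- the order of the Coxeter element is a product of two numbers larger than one -/
theorem order_eq (hq2 : 2 ≤ q) : ∃ m n, 2 ≤ m ∧ 2 ≤ n ∧
    (q + 1) * (q ^ 6 - q ^ 3 + 1) / Nat.gcd 2 (q - 1) = m * n := by
  have hg : Nat.gcd 2 (q - 1) ∣ q + 1 := by
    have h3 : Nat.gcd 2 (q - 1) ∣ 2 := Nat.gcd_dvd_left _ _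
    have h4 := (Nat.dvd_add_right (Nat.gcd_dvd_right 2 (q - 1))).2 h3
    rwa [show q - 1 + 2 = q + 1 by omega] at h4
  have hg0 : 0 < Nat.gcd 2 (q - 1) := Nat.gcd_pos_of_pos_left _ (by norm_num)
  have hg2 : Nat.gcd 2 (q - 1) ≤ 2 := Nat.gcd_le_left _ (by norm_num)
  obtain ⟨m, hm⟩ := hg
  refine ⟨m, q ^ 6 - q ^ 3 + 1, ?_, ?_, ?_⟩
  · by_contra hcon
    have h8 : Nat.gcd 2 (q - 1) * m ≤ 2 * 1 := Nat.mul_le_mul hg2 (by omega)
    omega
  · have h1 : q ^ 3 < q ^ 6 := Nat.pow_lt_pow_right (by omega) (by norm_num)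
    omega
  · rw [hm, mul_assoc, Nat.mul_div_cancel_left _ hg0]

/-- **The row of `E₇(q)`.** -/
theorem row_e7_of (hO : OverE7) {q : ℕ} : Cfsg.Agent.H862.Spr.Row (.e7 q) := by
  intro T _ _ hs h
  obtain ⟨F, i1, i2, hF, ⟨e⟩⟩ := h.real
  refine Cfsg.Agent.H424.Spr.Spr.congr e.symm ?_
  have hs' : IsSimpleGroup ↥(chevE7.group F) := MulEquiv.isSimpleGroup e.symm
  have hfin : Finite ↥(chevE7.group F) := inferInstance
  have hq2 : 2 ≤ q := by rw [← hF]; exact Fintype.one_lt_card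
  obtain ⟨x, hx⟩ := exists_cox hF
  have hna : ∃ a b : ↥(chevE7.group F), a * b ≠ b * a := by
    by_contra hcon
    push Not at hcon
    let _ : CommGroup ↥(chevE7.group F) := { (inferInstance : Group ↥(chevE7.group F)) with mul_comm := hcon }
    have h1 : (Nat.card ↥(chevE7.group F)).Prime := IsSimpleGroup.prime_card
    obtain ⟨m, n, hm, hn, hmn⟩ := order_eq hq2
    have h2 : orderOf x ∣ Nat.card ↥(chevE7.group F) := orderOf_dvd_natCard x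
    have h3 : orderOf x = m * n := hx.trans hmn
    rcases (Nat.dvd_prime h1).1 h2 with h4 | h4
    · rw [h3] at h4
      nlinarith
    · rw [← h4, h3] at h1
      exact Nat.not_prime_mul (by omega) (by omega) h1
  have hz := z_ne_one hq2 hx
  refine Cfsg.Agent.H424.Spr.spr_of_one hna (s := x)
    (M := Subgroup.normalizer (Subgroup.zpowers (x ^ (q ^ 6 - q ^ 3 + 1)) : Set ↥(chevE7.group F))) ?_ ?_
  · intro htop
    have h1 : (Subgroup.zpowers (x ^ (q ^ 6 - q ^ 3 + 1))).Normal := Subgroup.normalizer_eq_top_iff.1 htop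
    rcases h1.eq_bot_or_eq_top with h2 | h2
    · exact hz (Subgroup.zpowers_eq_bot.1 h2)
    · obtain ⟨a, b, hab⟩ := hna
      apply hab
      have ha : a ∈ Subgroup.zpowers (x ^ (q ^ 6 - q ^ 3 + 1)) := h2 ▸ Subgroup.mem_top a
      have hb : b ∈ Subgroup.zpowers (x ^ (q ^ 6 - q ^ 3 + 1)) := h2 ▸ Subgroup.mem_top b
      obtain ⟨i, rfl⟩ := Subgroup.mem_zpowers_iff.1 ha
      obtain ⟨j, rfl⟩ := Subgroup.mem_zpowers_iff.1 hb
      exact zpow_mul_comm _ i j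
  · intro K hxK hK
    subst hF
    exact hO hx K hxK hK

end Cfsg.Agent.H339.Spr
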